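import Mathlib
import Cfsg.Agent.Lib.Helper58.SpecProd.Defs

/-!
S2510 / S2513, package [PA] (helper76): a prime power `s ^ e`, `s` not the characteristic,
dividing an element order of `PSL_n(q)` divides `q ^ d - 1` for some `1 ≤ d ≤ n`.
-/

set_option autoImplicit false

namespace Cfsg.Agent.Lib.Helper76.SpecProd

open Cfsg.Agent.Lib.Helper58.SpecProd Polynomial

universe u

/-- Core: a matrix of order exactly `s ^ (e + 1)` over a finite field, `s` not the
characteristic: `s ^ (e + 1)` divides `q ^ d - 1` for some `1 ≤ d ≤ n`. -/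
theorem powA_core {F : Type u} [Field F] [Fintype F] (n : ℕ) (h : Matrix (Fin n) (Fin n) F)
    (s e : ℕ) (hs : s.Prime) (hsq : ¬ s ∣ Fintype.card F)
    (h1 : h ^ (s ^ (e + 1)) = 1) (h2 : h ^ (s ^ e) ≠ 1) :
    ∃ d : ℕ, 1 ≤ d ∧ d ≤ n ∧ s ^ (e + 1) ∣ Fintype.card F ^ d - 1 := by
  classical
  -- `s` is invertible in `F`
  have hsF : ((s ^ (e + 1) : ℕ) : F) ≠ 0 := by
    rw [Nat.cast_pow]
    apply pow_ne_zero
    intro hz
    have hp : (ringChar F).Prime := CharP.char_is_prime F (ringChar F)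
    have h3 : ringChar F ∣ s := (ringChar.spec F s).mp hz
    have h4 : ringChar F = s := (Nat.prime_dvd_prime_iff_eq hp hs).mp h3
    have h5 : ringChar F ∣ Fintype.card F :=
      (ringChar.spec F _).mp (FiniteField.cast_card_eq_zero F)
    exact hsq (h4 ▸ h5)
  have hsep : (X ^ (s ^ (e + 1)) - 1 : F[X]).Separable := by
    have := Polynomial.separable_X_pow_sub_C (1 : F) hsF one_ne_zero
    simpa using this
  -- the minimal polynomial
  have hμQ : minpoly F h ∣ X ^ (s ^ (e + 1)) - 1 := by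
    apply minpoly.dvd
    simp [h1]
  have hμsq : Squarefree (minpoly F h) := (hsep.of_dvd hμQ).squarefree
  have hμ0 : minpoly F h ≠ 0 := hμsq.ne_zero
  have hμP : ¬ minpoly F h ∣ X ^ (s ^ e) - 1 := by
    rintro ⟨r, hr⟩
    have h3 := congrArg (Polynomial.aeval h) hr
    rw [map_mul, minpoly.aeval, zero_mul] at h3
    simp only [map_sub, map_pow, aeval_X, map_one] at h3
    exact h2 (sub_eq_zero.mp h3)
  -- an irreducible factor of `μ` not dividing `X ^ (s ^ e) - 1`
  obtain ⟨g, hg⟩ : ∃ g : F[X], g = EuclideanDomain.gcd (minpoly F h) (X ^ (s ^ e) - 1 : F[X]) :=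
    ⟨_, rfl⟩
  have hgμ : g ∣ minpoly F h := hg ▸ EuclideanDomain.gcd_dvd_left _ _
  have hgP : g ∣ X ^ (s ^ e) - 1 := hg ▸ EuclideanDomain.gcd_dvd_right _ _
  obtain ⟨m, hm⟩ := hgμ
  have hm0 : m ≠ 0 := by
    rintro rfl
    rw [mul_zero] at hm
    exact hμ0 hm
  have hmu : ¬ IsUnit m := by
    intro hu
    apply hμP
    rw [hm]
    exact (IsUnit.mul_right_dvd hu).mpr hgP
  obtain ⟨f, hfirr, hfm⟩ := WfDvdMonoid.exists_irreducible_factor hmu hm0
  have hfμ : f ∣ minpoly F h := hfm.trans (Dvd.intro_left g hm.symm)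
  have hfP : ¬ f ∣ X ^ (s ^ e) - 1 := by
    intro hfP
    have hfg : f ∣ g := hg ▸ EuclideanDomain.dvd_gcd hfμ hfP
    have h3 : f * f ∣ minpoly F h := hm ▸ mul_dvd_mul hfg hfm
    exact hfirr.not_isUnit (hμsq f h3)
  have hfQ : f ∣ X ^ (s ^ (e + 1)) - 1 := hfμ.trans hμQ
  -- the field `K = F[X]/(f)`
  have : Fact (Irreducible f) := ⟨hfirr⟩
  have hf0 : f ≠ 0 := hfirr.ne_zero
  have hfin : Module.finrank F (AdjoinRoot f) = f.natDegree := by
    rw [PowerBasis.finrank (AdjoinRoot.powerBasis hf0), AdjoinRoot.powerBasis_dim]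
  have : Module.Finite F (AdjoinRoot f) := PowerBasis.finite (AdjoinRoot.powerBasis hf0)
  have : Finite (AdjoinRoot f) := Module.finite_of_finite F
  have : Fintype (AdjoinRoot f) := Fintype.ofFinite _
  have hcardK : Fintype.card (AdjoinRoot f) = Fintype.card F ^ f.natDegree := by
    rw [Module.card_eq_pow_finrank (K := F) (V := AdjoinRoot f), hfin]
  have hα1 : (AdjoinRoot.root f) ^ (s ^ (e + 1)) = 1 := by
    have h3 := AdjoinRoot.mk_eq_zero.mpr hfQ
    simpa [sub_eq_zero] using h3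
  have hα2 : ¬ (AdjoinRoot.root f) ^ (s ^ e) = 1 := by
    intro hα
    apply hfP
    apply AdjoinRoot.mk_eq_zero.mp
    simp [hα]
  have hord : orderOf (AdjoinRoot.root f) = s ^ (e + 1) := by
    have : Fact s.Prime := ⟨hs⟩
    exact orderOf_eq_prime_pow hα2 hα1
  have hα0 : AdjoinRoot.root f ≠ 0 := by
    intro h0
    rw [h0, zero_pow (pow_ne_zero _ hs.ne_zero)] at hα1
    exact zero_ne_one hα1
  have hdvd : s ^ (e + 1) ∣ Fintype.card F ^ f.natDegree - 1 := by
    rw [← hord, ← hcardK]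
    exact orderOf_dvd_of_pow_eq_one (FiniteField.pow_card_sub_one_eq_one _ hα0)
  refine ⟨f.natDegree, hfirr.natDegree_pos, ?_, hdvd⟩
  have hχ : f ∣ h.charpoly := hfμ.trans (Matrix.minpoly_dvd_charpoly h)
  have h3 := Polynomial.natDegree_le_of_dvd hχ (Matrix.charpoly_monic h).ne_zero
  rwa [Matrix.charpoly_natDegree_eq_dim, Fintype.card_fin] at h3

theorem pkgPowA : PkgPowA.{u} := by
  intro F _ _ n hn g s e hs hsq hdvd
  classical
  rcases Nat.eq_zero_or_pos e with rfl | he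
  · exact ⟨1, le_refl 1, hn, by simp⟩
  obtain ⟨e', rfl⟩ : ∃ e', e = e' + 1 := ⟨e - 1, by omega⟩
  obtain ⟨A, rfl⟩ := QuotientGroup.mk_surjective g
  have h1 : orderOf (QuotientGroup.mk A : Matrix.ProjectiveSpecialLinearGroup (Fin n) F) ∣
      orderOf A := by
    apply orderOf_dvd_of_pow_eq_one
    rw [← QuotientGroup.mk_pow, pow_orderOf_eq_one]
    rfl
  have h2 : s ^ (e' + 1) ∣ orderOf A := hdvd.trans h1
  have hpos : 0 < orderOf A := orderOf_pos A
  obtain ⟨c, hc⟩ := h2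
  have hc0 : c ≠ 0 := by
    rintro rfl
    rw [mul_zero] at hc
    omega
  have hB : orderOf (A ^ c) = s ^ (e' + 1) := by
    rw [orderOf_pow_of_dvd hc0 (Dvd.intro_left _ hc.symm), hc,
      Nat.mul_div_cancel _ (Nat.pos_of_ne_zero hc0)]
  apply powA_core n ((A ^ c : Matrix.SpecialLinearGroup (Fin n) F) : Matrix (Fin n) (Fin n) F)
    s e' hs hsq
  · rw [← Matrix.SpecialLinearGroup.coe_pow, ← hB, pow_orderOf_eq_one]
    rfl
  · intro h3
    have h4 : (A ^ c) ^ (s ^ e') = 1 := by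
      apply Subtype.ext
      rw [Matrix.SpecialLinearGroup.coe_pow]
      exact h3
    have h5 := orderOf_dvd_of_pow_eq_one h4
    rw [hB] at h5
    have h6 := Nat.le_of_dvd (pow_pos hs.pos _) h5
    have h7 : s ^ e' < s ^ (e' + 1) := Nat.pow_lt_pow_right hs.one_lt (by omega)
    omega

end Cfsg.Agent.Lib.Helper76.SpecProd
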