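import Mathlib
import Cfsg.Agent.Lib.Helper58.SpecProd.Defs

/-!
S2510 / S2513, package [S] (helper76): the Singer cycle of `PSL_n(q)`.
-/

set_option autoImplicit false

namespace Cfsg.Agent.Lib.Helper76.SpecProd

open Cfsg.Agent.Lib.Helper58.SpecProd

universe u v

/-- Arithmetic of `sig`: with `N = (q ^ n - 1) / (q - 1)` one has `N = sig q n * gcd n (q - 1)`. -/
theorem sig_arith (q n : ℕ) (hq : 2 ≤ q) :
    ∃ N : ℕ, q ^ n - 1 = (q - 1) * N ∧ (q ^ n - 1) / (q - 1) = N ∧
      N = sig q n * Nat.gcd n (q - 1) := by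
  have hq1 : q ≡ 1 [MOD q - 1] := by
    have : 1 ≡ q [MOD q - 1] := (Nat.modEq_iff_dvd' (by omega)).mpr dvd_rfl
    exact this.symm
  have key : ∀ n : ℕ, ∃ N : ℕ, q ^ n = (q - 1) * N + 1 ∧ N ≡ n [MOD q - 1] := by
    intro n
    induction n with
    | zero => exact ⟨0, by simp, Nat.ModEq.refl _⟩
    | succ k ih =>
      obtain ⟨N, h1, h2⟩ := ih
      refine ⟨q * N + 1, ?_, ?_⟩
      · rw [pow_succ, h1]
        obtain ⟨r, rfl⟩ : ∃ r, q = r + 1 := ⟨q - 1, by omega⟩
        simp only [Nat.add_sub_cancel]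
        ring
      · have h3 : q * N + 1 ≡ 1 * k + 1 [MOD q - 1] := Nat.ModEq.add_right 1 (Nat.ModEq.mul hq1 h2)
        rwa [one_mul] at h3
  obtain ⟨N, h1, h2⟩ := key n
  have hq1 : 0 < q - 1 := by omega
  have e1 : q ^ n - 1 = (q - 1) * N := by omega
  have hd : Nat.gcd n (q - 1) ∣ N :=
    (Nat.ModEq.dvd_iff h2 (Nat.gcd_dvd_right n (q - 1))).mpr (Nat.gcd_dvd_left _ _)
  refine ⟨N, e1, ?_, ?_⟩
  · rw [e1, Nat.mul_div_cancel_left _ hq1]
  · unfold sig
    rw [e1, Nat.mul_div_mul_left _ _ hq1, Nat.div_mul_cancel hd]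

/-- The Singer cycle from an extension field `K` of degree `n`. -/
theorem singer_aux {F : Type u} [Field F] [Fintype F] {K : Type v} [Field K] [Algebra F K]
    [Finite K] (n : ℕ) (hn : 2 ≤ n) (b : Module.Basis (Fin n) F K)
    (hcard : Nat.card K = Fintype.card F ^ n) :
    ∃ g : Matrix.ProjectiveSpecialLinearGroup (Fin n) F, orderOf g = sig (Fintype.card F) n := by
  classical
  have hq : 2 ≤ Fintype.card F := Fintype.one_lt_card
  obtain ⟨N, hN1, hN2, hN3⟩ := sig_arith (Fintype.card F) n hq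
  obtain ⟨q, hqF⟩ : ∃ q, Fintype.card F = q := ⟨_, rfl⟩
  rw [hqF] at hN1 hN2 hN3 hcard hq
  rw [hqF]
  obtain ⟨d, hd⟩ : ∃ d, Nat.gcd n (q - 1) = d := ⟨_, rfl⟩
  have hdpos : 0 < d := hd ▸ Nat.gcd_pos_of_pos_left _ (by omega)
  obtain ⟨n', hn'⟩ : d ∣ n := hd ▸ Nat.gcd_dvd_left n (q - 1)
  obtain ⟨m', hm'⟩ : d ∣ q - 1 := hd ▸ Nat.gcd_dvd_right n (q - 1)
  rw [hd] at hN3
  have hFq : ∀ a : F, a ≠ 0 → a ^ (q - 1) = 1 := by
    intro a ha
    rw [← hqF]
    exact FiniteField.pow_card_sub_one_eq_one a ha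
  have : Fintype K := Fintype.ofFinite K
  obtain ⟨ζ, hζ⟩ := IsCyclic.exists_generator (α := Kˣ)
  have hord : orderOf ζ = q ^ n - 1 := by
    rw [orderOf_eq_card_of_forall_mem_zpowers hζ, Nat.card_units, hcard]
  -- the norm of `ζ`
  have hnorm : algebraMap F K (Algebra.norm F (ζ : K)) = (ζ : K) ^ N := by
    rw [FiniteField.algebraMap_norm_eq_pow, hcard, Nat.card_eq_fintype_card, hqF, hN2]
  have ha₀ : Algebra.norm F (ζ : K) ≠ 0 := by
    intro h
    rw [h, map_zero] at hnorm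
    exact (pow_ne_zero N ζ.ne_zero) hnorm.symm
  have ha₀q : Algebra.norm F (ζ : K) ^ (q - 1) = 1 := hFq _ ha₀
  -- the matrix
  have hdet : (Algebra.leftMulMatrix b ((ζ : K) ^ (q - 1))).det = 1 := by
    rw [← Algebra.norm_eq_matrix_det, map_pow, ha₀q]
  obtain ⟨A, hA⟩ : ∃ A : Matrix.SpecialLinearGroup (Fin n) F,
      (A : Matrix (Fin n) (Fin n) F) = Algebra.leftMulMatrix b ((ζ : K) ^ (q - 1)) :=
    ⟨⟨_, hdet⟩, rfl⟩
  have hApow : ∀ k : ℕ, ((A ^ k : Matrix.SpecialLinearGroup (Fin n) F) : Matrix (Fin n) (Fin n) F)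
      = Algebra.leftMulMatrix b ((ζ : K) ^ ((q - 1) * k)) := by
    intro k
    rw [Matrix.SpecialLinearGroup.coe_pow, hA, pow_mul, ← map_pow]
  have hinj : Function.Injective (Algebra.leftMulMatrix b) := Algebra.leftMulMatrix_injective b
  have hscal : ∀ a : F, Algebra.leftMulMatrix b (algebraMap F K a) = Matrix.scalar (Fin n) a := by
    intro a
    rw [AlgHom.commutes]
    rfl
  have hiff : ∀ k : ℕ,
      (QuotientGroup.mk A : Matrix.ProjectiveSpecialLinearGroup (Fin n) F) ^ k = 1 ↔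
        sig q n ∣ k := by
    intro k
    rw [← QuotientGroup.mk_pow, QuotientGroup.eq_one_iff, Matrix.SpecialLinearGroup.mem_center_iff]
    constructor
    · rintro ⟨a, han, hak⟩
      rw [hApow, ← hscal] at hak
      have h1 : algebraMap F K a = (ζ : K) ^ ((q - 1) * k) := hinj hak
      rw [Fintype.card_fin] at han
      have hane : a ≠ 0 := by
        rintro rfl
        rw [zero_pow (by omega : n ≠ 0)] at han
        exact zero_ne_one han
      have haq : a ^ (q - 1) = 1 := hFq a hane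
      have had : a ^ d = 1 := by
        rw [← hd]
        exact pow_gcd_eq_one.mpr ⟨han, haq⟩
      have h2 : (ζ : K) ^ ((q - 1) * k * d) = 1 := by
        rw [pow_mul, ← h1, ← map_pow, had, map_one]
      have h3 : ζ ^ ((q - 1) * k * d) = 1 :=
        Units.ext (by rw [Units.val_pow_eq_pow_val, h2, Units.val_one])
      have h4 : q ^ n - 1 ∣ (q - 1) * k * d := by
        rw [← hord]
        exact orderOf_dvd_of_pow_eq_one h3
      rw [hN1, mul_assoc] at h4
      have h5 : N ∣ k * d := Nat.dvd_of_mul_dvd_mul_left (by omega) h4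
      rw [hN3] at h5
      exact Nat.dvd_of_mul_dvd_mul_right hdpos h5
    · rintro ⟨j, rfl⟩
      refine ⟨(Algebra.norm F (ζ : K) ^ ((q - 1) / d)) ^ j, ?_, ?_⟩
      · rw [Fintype.card_fin, ← pow_mul, ← pow_mul]
        have h6 : (q - 1) / d * (j * n) = (q - 1) * (j * n') := by
          rw [hm', Nat.mul_div_cancel_left _ hdpos, hn']
          ring
        rw [h6, pow_mul, ha₀q, one_pow]
      · rw [hApow, ← hscal]
        congr 1
        rw [map_pow, map_pow, hnorm, ← pow_mul, ← pow_mul]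
        congr 1
        rw [hN3, hm', Nat.mul_div_cancel_left _ hdpos]
        ring
  refine ⟨QuotientGroup.mk A, Nat.dvd_antisymm ?_ ?_⟩
  · exact orderOf_dvd_of_pow_eq_one ((hiff _).mpr dvd_rfl)
  · exact (hiff _).mp (pow_orderOf_eq_one _)

theorem pkgSingerPSL : PkgSingerPSL.{u} := by
  intro F _ _ n hn
  have : Fact (ringChar F).Prime := ⟨CharP.char_is_prime F (ringChar F)⟩
  have : NeZero n := ⟨by omega⟩
  have hrank : Module.finrank F (FiniteField.Extension F (ringChar F) n) = n :=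
    FiniteField.finrank_extension F (ringChar F) n
  have hcard : Nat.card (FiniteField.Extension F (ringChar F) n) = Fintype.card F ^ n := by
    rw [FiniteField.natCard_extension, Nat.card_eq_fintype_card]
  obtain ⟨b⟩ : Nonempty (Module.Basis (Fin n) F (FiniteField.Extension F (ringChar F) n)) :=
    ⟨Module.finBasisOfFinrankEq F _ hrank⟩
  exact singer_aux n hn b hcard

end Cfsg.Agent.Lib.Helper76.SpecProd
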